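import Mathlib
import Cfsg.Agent.Lib.Helper9.S4033.Defs
import Cfsg.Agent.Lib.Helper54.Frobenius

/-!
# S4033 package [EA]: if no element of prime order `r ≠ p` normalizes a nontrivial
`r'`-subgroup, then at most one prime `≠ p` divides the order (two applications of Frobenius'
normal complement theorem).
-/

set_option autoImplicit false

namespace Cfsg.Agent.Lib.Helper34.S4033

open Cfsg.Agent.Lib.Helper9.S4033

universe u

/-- One Frobenius step: a normal `q`-complement. -/
theorem frob_step {G : Type u} [Group G] [Finite G] (q : ℕ) (hq : q.Prime)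
    (H : ∀ r : ℕ, r.Prime → r ≠ q → ∀ e : G, orderOf e = r →
      ∀ D : Subgroup G, D ≠ ⊥ → (Nat.card D).Coprime r → (∀ d ∈ D, e * d * e⁻¹ ∈ D) → False) :
    ∃ N : Subgroup G, N.Normal ∧ (Nat.card N).Coprime q ∧
      ∀ t : ℕ, t.Prime → t ≠ q → t ∣ Nat.card G → t ∣ Nat.card N := by
  have : Fact q.Prime := ⟨hq⟩
  obtain ⟨P⟩ : Nonempty (Sylow q G) := inferInstance
  have key := (Cfsg.Agent.Lib.Helper54.frobenius_sylow P).mpr ?_
  · obtain ⟨N, hN, hc⟩ := key
    obtain ⟨-, hcop, k, hk⟩ := Cfsg.Agent.Lib.Helper54.isNormalPComplement_of_isComplement' hN hc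
    refine ⟨N, hN, hcop, ?_⟩
    intro t ht htq htG
    have h1 : Nat.card N * N.index = Nat.card G := N.card_mul_index
    rw [← h1, hk] at htG
    rcases (Nat.Prime.dvd_mul ht).mp htG with h | h
    · exact h
    · exact absurd ((Nat.prime_dvd_prime_iff_eq ht hq).mp (ht.dvd_of_dvd_pow h)) htq
  · intro Q hQP g hg hgq
    by_cases hQ : Q = ⊥
    · subst hQ
      rw [Subgroup.mem_centralizer_iff]
      intro h hh
      have : h = 1 := by simpa using hh
      subst this
      simp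
    by_cases hg1 : g = 1
    · subst hg1; exact Subgroup.one_mem _
    exfalso
    have hog : orderOf g ≠ 1 := fun h => hg1 (orderOf_eq_one_iff.mp h)
    obtain ⟨r, hr, hrg⟩ := Nat.exists_prime_and_dvd hog
    have hrq : r ≠ q := by
      rintro rfl
      have h2 : r ∣ Nat.gcd (orderOf g) r := Nat.dvd_gcd hrg dvd_rfl
      rw [Nat.Coprime.gcd_eq_one hgq] at h2
      exact hr.one_lt.ne' (Nat.dvd_one.mp h2)
    obtain ⟨m, hm⟩ := hrg
    have hopos : 0 < orderOf g := orderOf_pos g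
    have hm0 : m ≠ 0 := by
      rintro rfl
      rw [mul_zero] at hm
      omega
    have hoe : orderOf (g ^ m) = r := by
      rw [orderOf_pow_of_dvd hm0 ⟨r, by rw [hm, mul_comm]⟩, hm]
      exact Nat.mul_div_cancel _ (Nat.pos_of_ne_zero hm0)
    refine H r hr hrq (g ^ m) hoe Q hQ ?_ ?_
    · obtain ⟨n, hn⟩ := IsPGroup.iff_card.mp (P.isPGroup'.to_le hQP)
      rw [hn]
      exact Nat.Coprime.pow_left n ((Nat.coprime_primes hq hr).mpr (Ne.symm hrq))
    · intro d hd
      have h1 : g ^ m ∈ Subgroup.normalizer (Q : Set G) := Subgroup.pow_mem _ hg m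
      exact (Subgroup.mem_normalizer_iff.mp h1 d).mp hd

/-- **[EA]** -/
theorem pkgEA : PkgEA.{u} := by
  intro E _ _ p hp H s t hs ht hsp htp hsE htE
  by_contra hst
  obtain ⟨K, hK, hKp, hKdvd⟩ := frob_step p hp H
  have hsK := hKdvd s hs hsp hsE
  have htK := hKdvd t ht htp htE
  -- transfer the hypothesis to `K`
  have HK : ∀ r : ℕ, r.Prime → ∀ e : K, orderOf e = r →
      ∀ D : Subgroup K, D ≠ ⊥ → (Nat.card D).Coprime r → (∀ d ∈ D, e * d * e⁻¹ ∈ D) → False := by
    intro r hr e hoe D hD hDr hnorm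
    have hrp : r ≠ p := by
      rintro rfl
      have h1 : r ∣ Nat.card K := hoe ▸ orderOf_dvd_natCard e
      have h2 : r ∣ Nat.gcd (Nat.card K) r := Nat.dvd_gcd h1 dvd_rfl
      rw [Nat.Coprime.gcd_eq_one hKp] at h2
      exact hr.one_lt.ne' (Nat.dvd_one.mp h2)
    refine H r hr hrp (e : E) (by rw [Subgroup.orderOf_coe]; exact hoe) (D.map K.subtype) ?_ ?_ ?_
    · intro h
      exact hD ((Subgroup.map_eq_bot_iff_of_injective D K.subtype_injective).mp h)
    · rw [Subgroup.card_map_of_injective K.subtype_injective]; exact hDr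
    · rintro _ ⟨d, hd, rfl⟩
      exact ⟨e * d * e⁻¹, hnorm d hd, by simp⟩
  obtain ⟨Ks, hKs, hKss, hKsdvd⟩ := frob_step s hs (fun r hr _ => HK r hr)
  have htKs := hKsdvd t ht (Ne.symm hst) htK
  have : Fact s.Prime := ⟨hs⟩
  obtain ⟨x, hx⟩ := exists_prime_orderOf_dvd_card' s hsK
  refine HK s hs x hx Ks ?_ hKss ?_
  · rintro rfl
    rw [Subgroup.card_bot] at htKs
    exact ht.one_lt.ne' (Nat.dvd_one.mp htKs)
  · intro d hd
    exact hKs.conj_mem d hd x

/-- **[PE]** from [PA] and [EA]. -/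
theorem pkgPE_of (hPA : PkgPA.{u}) (hEA : PkgEA.{u}) : PkgPE.{u} := by
  intro V _ _ hcomm E Z p hp hfpf hZ hex s t hs ht hsp htp hsE htE
  refine hEA E p hp ?_ s t hs ht hsp htp hsE htE
  intro r hr hrp e hoe D hD hDr hnorm
  have hrE : r ∣ Nat.card E := hoe ▸ orderOf_dvd_natCard e
  refine hPA V hcomm E Z r hr hfpf hZ (hex r hr hrp hrE) (e : MulAut V) e.2
    (by rw [Subgroup.orderOf_coe]; exact hoe) (D.map E.subtype) ?_ ?_ ?_ ?_
  · rintro _ ⟨d, _, rfl⟩; exact d.2
  · intro h; exact hD ((Subgroup.map_eq_bot_iff_of_injective D E.subtype_injective).mp h)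
  · rw [Subgroup.card_map_of_injective E.subtype_injective]; exact hDr
  · rintro _ ⟨d, hd, rfl⟩; exact ⟨e * d * e⁻¹, hnorm d hd, by simp⟩

end Cfsg.Agent.Lib.Helper34.S4033
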