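import Mathlib
import Cfsg.Agent.Lib.Helper9.S4033.Defs

/-!
# S4033 package [PA]: an automorphism of order `r` acting fixed-point-freely off `Z` cannot
normalize a nontrivial `r'`-subgroup (norm map argument).
-/

set_option autoImplicit false

namespace Cfsg.Agent.Lib.Helper34.S4033

open Cfsg.Agent.Lib.Helper9.S4033

universe u

theorem pa_aux {V : Type u} [CommGroup V] [Finite V]
    (E : Subgroup (MulAut V)) (Z : Subgroup V) (r : ℕ) (hr : r.Prime)
    (hfpf : ∀ e ∈ E, e ≠ 1 → ∀ v : V, e v = v → v ∈ Z)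
    (hZ : ∀ e ∈ E, ∀ z ∈ Z, e z = z)
    (hv : ∃ v : V, v ∉ Z ∧ ∃ k : ℕ, orderOf v = r ^ k)
    (e : MulAut V) (heE : e ∈ E) (hoe : orderOf e = r)
    (D : Subgroup (MulAut V)) (hDE : D ≤ E) (hDbot : D ≠ ⊥) (hDcop : (Nat.card D).Coprime r)
    (hnorm : ∀ d ∈ D, e * d * e⁻¹ ∈ D) : False := by
  classical
  obtain ⟨v0, hv0Z, k0, hk0⟩ := hv
  have : Fact r.Prime := ⟨hr⟩
  let _ : Fintype D := Fintype.ofFinite D
  set N := Nat.card V with hN
  -- norm map
  let ν : V →* V := ∏ d : D, ((d : MulAut V).toMonoidHom)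
  have hν : ∀ w : V, ν w = ∏ d : D, (d : MulAut V) w := by
    intro w
    simp [ν]
  have hνD : ∀ d' ∈ D, ∀ w : V, ν (d' w) = ν w := by
    intro d' hd' w
    rw [hν, hν]
    exact Fintype.prod_equiv (Equiv.mulRight ⟨d', hd'⟩) _ _ (fun d => by simp [MulAut.mul_apply])
  -- generating set
  let S : Set V := {x | ∃ d ∈ D, ∃ v : V, v ^ (r ^ N) = 1 ∧ x = d v * v⁻¹}
  let W : Subgroup V := Subgroup.closure S
  have hWpow : ∀ w ∈ W, w ^ (r ^ N) = 1 := by
    have : W ≤ (powMonoidHom (r ^ N) : V →* V).ker := by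
      rw [Subgroup.closure_le]
      rintro x ⟨d, hd, v, hv, rfl⟩
      simp only [SetLike.mem_coe, MonoidHom.mem_ker, powMonoidHom_apply]
      rw [mul_pow, inv_pow, ← map_pow, hv, map_one, inv_one, mul_one]
    intro w hw
    have := this hw
    simpa using this
  have hWν : ∀ w ∈ W, ν w = 1 := by
    have : W ≤ ν.ker := by
      rw [Subgroup.closure_le]
      rintro x ⟨d, hd, v, hv, rfl⟩
      simp only [SetLike.mem_coe, MonoidHom.mem_ker]
      rw [map_mul, map_inv, hνD d hd, mul_inv_cancel]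
    intro w hw
    exact this hw
  have hWe : ∀ w ∈ W, e w ∈ W := by
    have : W ≤ W.comap e.toMonoidHom := by
      rw [Subgroup.closure_le]
      rintro x ⟨d, hd, v, hv, rfl⟩
      simp only [Subgroup.coe_comap, Set.mem_preimage, SetLike.mem_coe]
      apply Subgroup.subset_closure
      refine ⟨e * d * e⁻¹, hnorm d hd, e v, ?_, ?_⟩
      · rw [← map_pow, hv, map_one]
      · simp [MulAut.mul_apply]
    intro w hw
    exact this hw
  have hv0pow : v0 ^ (r ^ N) = 1 := by
    have h1 : orderOf v0 ∣ N := orderOf_dvd_natCard v0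
    have h2 : k0 ≤ N := by
      have h3 : r ^ k0 ≤ N := by
        rw [← hk0]; exact Nat.le_of_dvd Nat.card_pos h1
      exact le_trans (Nat.lt_pow_self hr.one_lt).le h3
    have h4 : orderOf v0 ∣ r ^ N := by
      rw [hk0]; exact pow_dvd_pow r h2
    exact orderOf_dvd_iff_pow_eq_one.mp h4
  have hWne : W ≠ ⊥ := by
    intro hW
    obtain ⟨d, hd, hd1⟩ : ∃ d ∈ D, d ≠ 1 := by
      by_contra h
      push Not at h
      exact hDbot ((Subgroup.eq_bot_iff_forall D).mpr h)
    have h1 : d v0 * v0⁻¹ ∈ W := Subgroup.subset_closure ⟨d, hd, v0, hv0pow, rfl⟩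
    rw [hW, Subgroup.mem_bot] at h1
    have h2 : d v0 = v0 := by rwa [mul_inv_eq_one] at h1
    exact hv0Z (hfpf d (hDE hd) hd1 v0 h2)
  -- the action of `zpowers e` on `W`
  let H : Subgroup (MulAut V) := Subgroup.zpowers e
  have hpowW : ∀ n : ℕ, ∀ w ∈ W, (e ^ n) w ∈ W := by
    intro n
    induction n with
    | zero => intro w hw; simpa using hw
    | succ n ih =>
      intro w hw
      rw [pow_succ, MulAut.mul_apply]
      exact ih (e w) (hWe w hw)
  have hHW : ∀ c ∈ H, ∀ w ∈ W, c w ∈ W := by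
    intro c hc
    have hc' : c ∈ Submonoid.powers e := by
      rwa [mem_powers_iff_mem_zpowers]
    obtain ⟨n, rfl⟩ := hc'
    exact hpowW n
  let P : SubMulAction H V :=
    { carrier := (W : Set V)
      smul_mem' := fun c x hx => hHW c.1 c.2 x hx }
  have hHp : IsPGroup r H := by
    apply IsPGroup.of_card (n := 1)
    rw [pow_one, Nat.card_zpowers, hoe]
  have hWp : IsPGroup r W := fun w => ⟨N, Subtype.ext (by simpa using hWpow w w.2)⟩
  have hcardP : r ∣ Nat.card P := by
    have h1 : Nat.card P = Nat.card W := Nat.card_congr (Equiv.subtypeEquivRight (fun x => Iff.rfl))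
    rw [h1]
    rcases hWp.card_eq_or_dvd with h | h
    · exact absurd (Subgroup.eq_bot_of_card_eq W h) hWne
    · exact h
  have ha : (⟨1, W.one_mem⟩ : P) ∈ MulAction.fixedPoints H P := by
    intro c
    apply Subtype.ext
    show (c : MulAut V) 1 = 1
    exact map_one _
  obtain ⟨b, hb, hab⟩ := hHp.exists_fixed_point_of_prime_dvd_card_of_fixed_point P hcardP ha
  have hbW : (b : V) ∈ W := b.2
  have hb1 : (b : V) ≠ 1 := fun h => hab (Subtype.ext h.symm)
  have heb : e (b : V) = b := by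
    have := hb ⟨e, Subgroup.mem_zpowers e⟩
    exact congrArg Subtype.val this
  have he1 : e ≠ 1 := by
    intro h; rw [h, orderOf_one] at hoe; exact hr.ne_one hoe.symm
  have hbZ : (b : V) ∈ Z := hfpf e heE he1 b heb
  have hνb : ν b = (b : V) ^ (Nat.card D) := by
    rw [hν]
    rw [Finset.prod_congr rfl (fun (d : D) _ => hZ (d : MulAut V) (hDE d.property) b hbZ)]
    simp [Nat.card_eq_fintype_card]
  have h1 : (b : V) ^ (Nat.card D) = 1 := by rw [← hνb]; exact hWν b hbW
  have h2 : (b : V) ^ (r ^ N) = 1 := hWpow b hbW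
  have h3 : orderOf (b : V) ∣ Nat.gcd (Nat.card D) (r ^ N) :=
    Nat.dvd_gcd (orderOf_dvd_of_pow_eq_one h1) (orderOf_dvd_of_pow_eq_one h2)
  have hc : Nat.Coprime (Nat.card D) (r ^ N) := Nat.Coprime.pow_right N hDcop
  rw [Nat.Coprime.gcd_eq_one hc] at h3
  exact hb1 (orderOf_eq_one_iff.mp (Nat.dvd_one.mp h3))

/-- **[PA]** -/
theorem pkgPA : PkgPA.{u} := by
  intro V _ _ hcomm E Z r hr hfpf hZ hv e heE hoe D hDE hDbot hDcop hnorm
  exact @pa_aux V (CommGroup.mk hcomm) _ E Z r hr hfpf hZ hv e heE hoe D hDE hDbot hDcop hnorm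

end Cfsg.Agent.Lib.Helper34.S4033
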