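import Mathlib
import Cfsg.Agent.Lib.Helper9.S4033.Defs
import Cfsg.Agent.Lib.Helper34.S4033.PA
import Cfsg.Agent.Lib.Helper34.S4033.EA

/-!
# S4033 package [PE] (closed): [PA] + [EA] glued.
-/

set_option autoImplicit false

namespace Cfsg.Agent.Lib.Helper34.S4033

open Cfsg.Agent.Lib.Helper9.S4033

universe u

/-- **[PE]** (closed). -/
theorem pkgPE : PkgPE.{u} := pkgPE_of pkgPA pkgEA

end Cfsg.Agent.Lib.Helper34.S4033
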